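/-
S0984 package [Gc] (coordinator helper6): in a Sylow 2-subgroup `S` (order 8) with an element
`u` of order four, every element outside `⟨u⟩` is an involution conjugate to `u²`.
-/
import Cfsg.Agent.Lib.Helper6.A7.Defs
import Cfsg.Agent.Lib.Helper17.Simple
import Cfsg.Agent.Lib.Helper53.Basic

set_option autoImplicit false

namespace Cfsg.Agent.Lib.Helper22.A7

open Cfsg.Agent.Lib.Helper17

universe u

/-- the four elements of a cyclic group of order four -/
theorem mem_zpowers_four {G : Type*} [Group G] {u x : G} (hu4 : orderOf u = 4)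
    (hx : x ∈ Subgroup.zpowers u) : x = 1 ∨ x = u ∨ x = u ^ 2 ∨ x = u ^ 3 := by
  obtain ⟨k, rfl⟩ := Subgroup.mem_zpowers_iff.1 hx
  rw [← zpow_mod_orderOf, hu4]
  have h4 : ((4 : ℕ) : ℤ) = 4 := by norm_num
  rw [h4]
  have hk : k % 4 = 0 ∨ k % 4 = 1 ∨ k % 4 = 2 ∨ k % 4 = 3 := by omega
  rcases hk with h | h | h | h <;> rw [h]
  · left; simp
  · right; left; simp
  · right; right; left; exact zpow_ofNat u 2
  · right; right; right; exact zpow_ofNat u 3

theorem orderOf_conj' {G : Type*} [Group G] (g x : G) : orderOf (g * x * g⁻¹) = orderOf x := by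
  have h := (MulAut.conj g).orderOf_eq x
  simpa [MulAut.conj_apply] using h

theorem lemSylow2 : Cfsg.Agent.Lib.Helper6.A7.LemSylow2.{u} := by
  intro G _ _ _ hcard hNA hTI S u hu hu4 s hs hsu
  have : Fact (Nat.Prime 2) := ⟨Nat.prime_two⟩
  have hS8 : Nat.card (S : Subgroup G) = 8 := by
    have h0 := card_sylow_eq_of_card_eq 2 3 315 (by rw [hcard]; norm_num) (by norm_num) S
    simpa using h0
  have hu4' : u ^ 4 = 1 := by rw [← hu4]; exact pow_orderOf_eq_one u
  have hu2ne : u ^ 2 ≠ 1 := by
    intro h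
    have h0 := orderOf_dvd_of_pow_eq_one h
    rw [hu4] at h0
    omega
  have hu1 : u ≠ 1 := by
    intro h
    rw [h, orderOf_one] at hu4
    omega
  obtain ⟨U, hU⟩ : ∃ U : Subgroup G, U = Subgroup.zpowers u := ⟨_, rfl⟩
  have huU : u ∈ U := by rw [hU]; exact Subgroup.mem_zpowers u
  have hUS : U ≤ (S : Subgroup G) := by rw [hU, Subgroup.zpowers_le]; exact hu
  have hU4 : Nat.card U = 4 := by rw [hU, Nat.card_zpowers, hu4]
  have hsU : s ∉ U := by rw [hU]; exact hsu
  have hrel : U.relIndex (S : Subgroup G) = 2 := by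
    have h0 := Subgroup.relIndex_mul_relIndex (⊥ : Subgroup G) U (S : Subgroup G) bot_le hUS
    rw [Subgroup.relIndex_bot_left, Subgroup.relIndex_bot_left, hU4, hS8] at h0
    omega
  have hidx : (U.subgroupOf (S : Subgroup G)).index = 2 := hrel
  have hcases : ∀ x ∈ U, x = 1 ∨ x = u ∨ x = u ^ 2 ∨ x = u ^ 3 := by
    intro x hx; rw [hU] at hx; exact mem_zpowers_four hu4 hx
  -- membership in `U` for elements of `S`
  have hmul_iff : ∀ a ∈ (S : Subgroup G), ∀ b ∈ (S : Subgroup G),
      (a * b ∈ U ↔ (a ∈ U ↔ b ∈ U)) := by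
    intro a ha b hb
    have h0 := Subgroup.mul_mem_iff_of_index_two hidx (a := ⟨a, ha⟩) (b := ⟨b, hb⟩)
    simpa [Subgroup.mem_subgroupOf] using h0
  have hnorm : ∀ a ∈ (S : Subgroup G), ∀ x ∈ U, a * x * a⁻¹ ∈ U := by
    intro a ha x hx
    have hN := Subgroup.normal_of_index_eq_two hidx
    have h0 := hN.conj_mem ⟨x, hUS hx⟩ (by rw [Subgroup.mem_subgroupOf]; exact hx) ⟨a, ha⟩
    simpa [Subgroup.mem_subgroupOf] using h0
  -- `s` inverts `u`
  have hsus : s * u * s⁻¹ = u⁻¹ := by
    have h0 := hnorm s hs u huU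
    have hne := hNA S u hu hu4 s hs hsu
    have hord : orderOf (s * u * s⁻¹) = 4 := by
      rw [← hu4]; exact orderOf_conj' s u
    rcases hcases _ h0 with h | h | h | h
    · rw [h, orderOf_one] at hord; omega
    · exfalso; apply hne
      have : s * u = (s * u * s⁻¹) * s := by group
      rw [this, h]
    · exfalso
      have h1 : (s * u * s⁻¹) ^ 2 = 1 := by
        rw [h, ← pow_mul]; exact hu4'
      have h2 := orderOf_dvd_of_pow_eq_one h1
      rw [hord] at h2; omega
    · rw [h]
      have : u ^ 3 * u = 1 := by rw [← pow_succ]; exact hu4'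
      exact eq_inv_of_mul_eq_one_left this
  have hinv : ∀ x ∈ U, s * x * s⁻¹ = x⁻¹ := by
    intro x hx
    rw [hU] at hx
    obtain ⟨k, rfl⟩ := Subgroup.mem_zpowers_iff.1 hx
    rw [← conj_zpow, hsus, inv_zpow]
  -- `s * s ∈ {1, u²}`
  have hss : s * s ∈ U := by
    rw [hmul_iff s hs s hs]
  have hss_cases : s * s = 1 ∨ s * s = u ^ 2 := by
    have hne := hNA S u hu hu4 s hs hsu
    rcases hcases _ hss with h | h | h | h
    · exact Or.inl h
    · exfalso; apply hne
      rw [← h]; group
    · exact Or.inr h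
    · exfalso; apply hne
      have h9 : u = (s * s) ^ 3 := by
        rw [h, ← pow_mul]
        have : u ^ (3 * 3) = u ^ 4 * u ^ 4 * u := by group
        rw [this, hu4', one_mul, one_mul]
      rw [h9]; exact ((Commute.refl s).mul_right (Commute.refl s)).pow_right 3
  have hs2 : s * s = 1 := by
    rcases hss_cases with h | h
    · exact h
    · exfalso
      -- every involution of `S` equals `u²`
      have hinvol : ∀ r ∈ (S : Subgroup G), orderOf r = 2 → r = u ^ 2 := by
        intro r hr hr2
        have hrr : r * r = 1 := by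
          have h0 := pow_orderOf_eq_one r
          rw [hr2, pow_two] at h0; exact h0
        have hr1 : r ≠ 1 := by
          intro h0; rw [h0, orderOf_one] at hr2; omega
        by_cases hrU : r ∈ U
        · rcases hcases r hrU with h0 | h0 | h0 | h0
          · exact absurd h0 hr1
          · exfalso; rw [h0, hu4] at hr2; omega
          · exact h0
          · exfalso
            rw [h0] at hrr
            apply hu2ne
            have : u ^ 3 * u ^ 3 = u ^ 4 * u ^ 2 := by group
            rw [this, hu4', one_mul] at hrr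
            exact hrr
        · exfalso
          -- r = x * s with x ∈ U
          have hx : r * s⁻¹ ∈ U := by
            rw [hmul_iff r hr s⁻¹ ((S : Subgroup G).inv_mem hs)]
            constructor
            · intro h0; exact absurd h0 hrU
            · intro h0; exact absurd (by simpa using U.inv_mem h0) hsU
          have h1 := hinv _ hx
          -- r * r = x * (s x s⁻¹) * (s * s)
          have h2 : r * r = (r * s⁻¹) * (s * (r * s⁻¹) * s⁻¹) * (s * s) := by group
          rw [h1, mul_inv_cancel, one_mul, h] at h2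
          rw [h2] at hrr
          exact hu2ne hrr
      obtain ⟨r₁, hr₁, r₂, hr₂, ho₁, ho₂, hne⟩ := hTI S
      exact hne ((hinvol r₁ hr₁ ho₁).trans (hinvol r₂ hr₂ ho₂).symm)
  have hs1 : s ≠ 1 := by
    intro h; apply hsU; rw [h]; exact U.one_mem
  have hso : orderOf s = 2 := by
    apply orderOf_eq_prime
    · rw [pow_two]; exact hs2
    · exact hs1
  -- Thompson transfer
  have hex : ∃ g : G, g * s * g⁻¹ ∈ U := by
    by_contra hno
    push_neg at hno
    obtain ⟨M, hMn, hMi, hsM⟩ :=
      Cfsg.Agent.Lib.Helper53.thompson_transfer S U hUS hrel s hso hno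
    rcases hMn.eq_bot_or_eq_top with h | h
    · rw [h, Subgroup.index_bot, hcard] at hMi; omega
    · rw [h, Subgroup.index_top] at hMi; omega
  obtain ⟨g, hg⟩ := hex
  have hgo : orderOf (g * s * g⁻¹) = 2 := by rw [← hso]; exact orderOf_conj' g s
  rw [isConj_iff]
  refine ⟨g, ?_⟩
  rcases hcases _ hg with h | h | h | h
  · rw [h, orderOf_one] at hgo; omega
  · rw [h, hu4] at hgo; omega
  · exact h
  · exfalso
    have h1 : (g * s * g⁻¹) ^ 2 = 1 := by rw [← hgo]; exact pow_orderOf_eq_one _
    rw [h, ← pow_mul] at h1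
    apply hu2ne
    have : u ^ (3 * 2) = u ^ 4 * u ^ 2 := by group
    rw [this, hu4', one_mul] at h1
    exact h1

end Cfsg.Agent.Lib.Helper22.A7
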