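/-
S0984 package [A] (coordinator helper6): Sylow 7-data of a simple group of order 2520.
-/
import Cfsg.Agent.Lib.Helper6.A7.Defs
import Cfsg.Agent.Lib.Helper5.SylF

set_option autoImplicit false

namespace Cfsg.Agent.Lib.Helper22.A7

open Cfsg.Agent.Lib.Helper5.Syl Cfsg.Agent.Lib.Helper17

universe u

theorem tripleList_7 :
    tripleList 7 360 7 [2, 3, 5] = [(15, 3, 8), (15, 6, 4), (36, 2, 5), (120, 3, 1)] := by
  decide

theorem lemSylow7 : Cfsg.Agent.Lib.Helper6.A7.LemSylow7.{u} := by
  intro G _ _ _ hcard h15 h36 P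
  have : Fact (Nat.Prime 7) := ⟨by norm_num⟩
  have hnp : ¬ (Nat.card G).Prime := by rw [hcard]; norm_num
  have h : Nat.card G = 7 * 360 := by rw [hcard]
  obtain ⟨P₀, hP₀, t, ht, hn, hN₀, hC₀⟩ := triple_mem hnp 7 360 h (by norm_num) 7 (by norm_num)
    (by norm_num) ⟨2, by norm_num, by norm_num, by norm_num⟩ [2, 3, 5]
    (by intro q hq; simp at hq; rcases hq with rfl | rfl | rfl <;> norm_num)
  rw [tripleList_7] at ht
  have hn120 : Nat.card (Sylow 7 G) = 120 := by
    simp only [List.mem_cons, List.not_mem_nil, or_false] at ht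
    rcases ht with rfl | rfl | rfl | rfl
    · exact absurd hn h15
    · exact absurd hn h15
    · exact absurd hn h36
    · exact hn
  have hP : Nat.card (P : Subgroup G) = 7 := by
    have h0 := card_sylow_eq_of_card_eq 7 1 360 (by rw [hcard]; norm_num) (by norm_num) P
    simpa using h0
  have hNP : Nat.card (Subgroup.normalizer ((P : Subgroup G) : Set G)) = 21 := by
    have h0 := card_sylow_mul_card_normalizer 7 P
    rw [hn120, hcard] at h0
    omega
  obtain ⟨he1, hed, hmul, hPC⟩ := relIndex_centralizer_sylow_prime hnp 7 P hP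
  refine ⟨?_, hNP⟩
  have h7C : 7 ∣ Nat.card (Subgroup.centralizer ((P : Subgroup G) : Set G)) := by
    have h0 := Subgroup.card_dvd_of_le hPC
    rwa [hP] at h0
  rw [hNP] at hmul
  obtain ⟨e, he⟩ : ∃ e, e = (Subgroup.centralizer ((P : Subgroup G) : Set G)).relIndex
      (Subgroup.normalizer ((P : Subgroup G) : Set G)) := ⟨_, rfl⟩
  rw [← he] at he1 hed hmul
  obtain ⟨c', hc'⟩ := h7C
  rw [hc'] at hmul
  have h3 : e * c' = 3 := by nlinarith
  have he3 : e ∣ 3 := Dvd.intro _ h3
  have hcases : e = 1 ∨ e = 3 := (Nat.dvd_prime (by norm_num : Nat.Prime 3)).1 he3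
  have hc1 : c' = 1 := by
    rcases hcases with h1 | h1
    · exact absurd h1 he1
    · rw [h1] at h3; omega
  symm
  apply Subgroup.eq_of_le_of_card_ge hPC
  rw [hP, hc', hc1]

end Cfsg.Agent.Lib.Helper22.A7
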